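import Mathlib

/-!
# S5917, type D: linear algebra of the quaternion group in characteristic 2 (helper544)

`i j z` : operators with `i ^ 2 = j ^ 2 = z`, `z ^ 2 = 1`, `i j = z j i` over an algebraically closed field of
characteristic two.
* `choui` : if `z` is free (`ker (1 + z) ≤ im (1 + z)`) and `Tr = (1 + z)(1 + i)(1 + j) = 0` then the space is zero;
* `form_zero` : `z` free, dimension at most `8`, an invariant nondegenerate alternating form with `(x, z x) = 0` for all `x`:
  the space is zero;
* `toral_zero` : `P` a selfadjoint idempotent commuting with `i`, `j` of the form `A + z A z`, `A` selfadjoint, is zero.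
-/

set_option autoImplicit false
set_option linter.unusedSectionVars false

namespace Cfsg.Agent.H544.L34

theorem addself (K : Type*) {X : Type*} [Field K] [CharP K 2] [AddCommGroup X] [Module K X] (x : X) : x + x = 0 := by
  rw [← two_smul K, CharTwo.two_eq_zero, zero_smul]

section Choui

variable {K X : Type*} [Field K] [CharP K 2] [IsAlgClosed K] [AddCommGroup X] [Module K X] [FiniteDimensional K X]

/-- the operators `a = 1 + i`, `b = 1 + j`, `c = 1 + z` -/
structure Abc (a b c : Module.End K X) : Prop where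
  aa : ∀ x, a (a x) = c x
  bb : ∀ x, b (b x) = c x
  cc : ∀ x, c (c x) = 0
  ac : ∀ x, c (a x) = a (c x)
  bc : ∀ x, c (b x) = b (c x)
  ba : ∀ x, b (a x) = a (b x) + c x + a (c x) + b (c x) + a (b (c x))

theorem Abc.tr' {a b c : Module.End K X} (h : Abc a b c) (tr : ∀ x, a (b (c x)) = 0) (x : X) :
    b (a x) = a (b x) + c x + a (c x) + b (c x) := by
  rw [h.ba, tr, add_zero]

theorem choui {a b c : Module.End K X} (h : Abc a b c) (tr : ∀ x, a (b (c x)) = 0)
    (free : ∀ x, c x = 0 → ∃ y, x = c y) (x : X) : x = 0 := by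
  classical
  by_contra hx
  have h2 : (2 : K) = 0 := CharTwo.two_eq_zero
  -- the subspace `J = a I`, `I = im c`
  set J : Submodule K X := LinearMap.range (a ∘ₗ c) with hJ
  have memJ : ∀ {u : X}, u ∈ J ↔ ∃ v, a (c v) = u := fun {u} => LinearMap.mem_range
  -- `ker a` on `I`
  have F1 : ∀ u, a (c u) = 0 → c u ∈ J := by
    intro u hu
    obtain ⟨v, hv⟩ := free (a u) (by rw [h.ac, hu])
    refine memJ.2 ⟨v, ?_⟩
    have h1 : a (a u) = a (c v) := by rw [hv]
    rw [h.aa] at h1
    exact h1.symm
  have hbJ : ∀ u, b (c u) ∈ J := fun u => by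
    have h1 : b (c u) = c (b u) := (h.bc u).symm
    rw [h1]
    apply F1
    rw [h.bc, tr]
  have hI : ∃ u, c u ≠ 0 := by
    by_contra hn
    push Not at hn
    obtain ⟨y, hy⟩ := free x (hn x)
    exact hx (by rw [hy, hn])
  have hJ0 : ∃ u, a (c u) ≠ 0 := by
    by_contra hn
    push Not at hn
    obtain ⟨u, hu⟩ := hI
    obtain ⟨v, hv⟩ := memJ.1 (F1 u (hn u))
    exact hu (by rw [← hv, hn])
  -- a section
  let f : X →ₗ[K] J := LinearMap.rangeRestrict (a ∘ₗ c)
  obtain ⟨s, hs⟩ := LinearMap.exists_rightInverse_of_surjective f (LinearMap.range_rangeRestrict _)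
  have hs' : ∀ w : J, a (c (s w)) = (w : X) := fun w => by
    have := congrArg (fun g => ((g w : J) : X)) hs
    exact this
  let T : Module.End K J := LinearMap.codRestrict J (b ∘ₗ c ∘ₗ s) (fun w => hbJ _)
  have : Nontrivial J := by
    obtain ⟨u, hu⟩ := hJ0
    exact ⟨⟨⟨_, memJ.2 ⟨u, rfl⟩⟩, 0, fun hh => hu (congrArg Subtype.val hh)⟩⟩
  obtain ⟨l, hl⟩ := Module.End.exists_eigenvalue T
  obtain ⟨w, hw⟩ := hl.exists_hasEigenvector
  have hw1 : T w = l • w := hw.apply_eq_smul
  have hw0 : w ≠ 0 := hw.2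
  set y := s w with hy
  have e1 : b (c y) = l • a (c y) := by
    have := congrArg Subtype.val hw1
    rw [hs']
    exact this
  have e0 : a (c y) ≠ 0 := by
    rw [hs']
    exact fun hh => hw0 (Subtype.ext hh)
  -- `x'`
  obtain ⟨y1, E1⟩ := free (l • a y + b y) (by
    rw [map_add, map_smul, h.ac, h.bc, e1]
    exact addself K _)
  have E2 : a (b y) = a (c y1) + l • c y := by
    have h1 : a (l • a y + b y) = a (c y1) := by rw [E1]
    rw [map_add, map_smul, h.aa] at h1
    rw [← h1]
    linear_combination (norm := module) (-h2) • (l • c y)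
  have E3 : b (c y1) = l • a (c y1) + (l * l + l + 1) • c y + (l * l + l) • a (c y) := by
    have h1 : b (l • a y + b y) = b (c y1) := by rw [E1]
    rw [map_add, map_smul, h.bb, h.tr' tr, E2, e1] at h1
    rw [← h1]
    module
  have hcc : ∀ u, a (a (c u)) = 0 := fun u => by rw [h.aa, h.cc]
  have hl2 : l * l + l + 1 = 0 := by
    have h1 : a (b (c y1)) = a (l • a (c y1) + (l * l + l + 1) • c y + (l * l + l) • a (c y)) := by rw [E3]
    rw [tr, map_add, map_add, map_smul, map_smul, map_smul, hcc, hcc, smul_zero, smul_zero, add_zero, zero_add] at h1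
    rcases smul_eq_zero.1 h1.symm with h2 | h2
    · exact h2
    · exact absurd h2 e0
  have hl3 : l * l + l = 1 := by linear_combination hl2 - h2
  rw [hl2, zero_smul, add_zero, hl3, one_smul] at E3
  -- `x''`
  obtain ⟨y2, E4⟩ := free (l • a y1 + b y1 + a y) (by
    rw [map_add, map_add, map_smul, h.ac, h.bc, h.ac, E3]
    linear_combination (norm := module) h2 • (l • a (c y1) + a (c y)))
  have E5 : a (b y1) = a (c y2) + l • c y1 + c y := by
    have h1 : a (l • a y1 + b y1 + a y) = a (c y2) := by rw [E4]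
    rw [map_add, map_add, map_smul, h.aa, h.aa] at h1
    rw [← h1]
    linear_combination (norm := module) (-h2) • (l • c y1 + c y)
  have E6 : b (c y2) = l • a (c y2) + c y + l • (a (c y1) + b (c y1)) + a (c y1) + (1 + l) • a (c y) := by
    have h1 : b (l • a y1 + b y1 + a y) = b (c y2) := by rw [E4]
    rw [map_add, map_add, map_smul, h.bb, h.tr' tr, h.tr' tr, E5, E2, e1] at h1
    rw [← h1]
    linear_combination (norm := module) hl2 • c y1 + (h2 * l) • c y
  have h1 : a (b (c y2)) = a (l • a (c y2) + c y + l • (a (c y1) + b (c y1)) + a (c y1) + (1 + l) • a (c y)) := by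
    rw [E6]
  rw [tr] at h1
  simp only [map_add, map_smul, hcc, tr, smul_zero, add_zero, zero_add] at h1
  exact e0 h1.symm

end Choui

section Form

variable {K X : Type*} [Field K] [CharP K 2] [IsAlgClosed K] [AddCommGroup X] [Module K X] [FiniteDimensional K X]

/-- the quaternion group as operators -/
structure Quat (i j z : Module.End K X) : Prop where
  ii : ∀ x, i (i x) = z x
  jj : ∀ x, j (j x) = z x
  zz : ∀ x, z (z x) = x
  ij : ∀ x, i (j x) = z (j (i x))

variable {i j z : Module.End K X}

theorem Quat.zi (h : Quat i j z) (x : X) : z (i x) = i (z x) := by rw [← h.ii, ← h.ii]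

theorem Quat.zj (h : Quat i j z) (x : X) : z (j x) = j (z x) := by rw [← h.jj, ← h.jj]

theorem Quat.ji (h : Quat i j z) (x : X) : j (i x) = z (i (j x)) := by rw [h.ij, h.zz]

theorem Quat.abc (h : Quat i j z) : Abc (1 + i) (1 + j) (1 + z) := by
  have h2 : (2 : K) = 0 := CharTwo.two_eq_zero
  refine ⟨fun x => ?_, fun x => ?_, fun x => ?_, fun x => ?_, fun x => ?_, fun x => ?_⟩
  · simp only [LinearMap.add_apply, Module.End.one_apply, map_add, h.ii]
    linear_combination (norm := module) h2 • i x
  · simp only [LinearMap.add_apply, Module.End.one_apply, map_add, h.jj]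
    linear_combination (norm := module) h2 • j x
  · simp only [LinearMap.add_apply, Module.End.one_apply, map_add, h.zz]
    linear_combination (norm := module) h2 • (x + z x)
  · simp only [LinearMap.add_apply, Module.End.one_apply, map_add, h.zi]
    module
  · simp only [LinearMap.add_apply, Module.End.one_apply, map_add, h.zj]
    module
  · simp only [LinearMap.add_apply, Module.End.one_apply, map_add, h.ji, h.zi, h.zj]
    linear_combination (norm := module) (-h2) • ((2 : K) • x + (2 : K) • z x + i x + i (z x) + j x + j (z x) + i (j x))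

/-- the trace -/
def Tr (i j z : Module.End K X) : Module.End K X := (1 + i) * ((1 + j) * (1 + z))

theorem Tr_apply (x : X) :
    Tr i j z x = x + z x + (i x + i (z x)) + (j x + j (z x)) + (i (j x) + i (j (z x))) := by
  simp only [Tr, Module.End.mul_apply, LinearMap.add_apply, Module.End.one_apply, map_add]
  abel

/-- halving the rank -/
theorem rank_half (f : Module.End K X) (U : Submodule K X) (h : ∀ x ∈ U, f (f x) = 0) (hU : ∀ x ∈ U, f x ∈ U) :
    2 * Module.finrank K (U.map f) ≤ Module.finrank K U := by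
  let g : U →ₗ[K] U := f.restrict hU
  have h1 := LinearMap.finrank_range_add_finrank_ker g
  have h2 : LinearMap.range g ≤ LinearMap.ker g := by
    rintro _ ⟨x, rfl⟩
    exact Subtype.ext (h x x.2)
  have h3 := Submodule.finrank_mono h2
  have h4 : Module.finrank K (U.map f) = Module.finrank K (LinearMap.range g) := by
    have : U.map f = (LinearMap.range g).map U.subtype := by
      ext y
      constructor
      · rintro ⟨x, hx, rfl⟩
        exact ⟨g ⟨x, hx⟩, ⟨_, rfl⟩, rfl⟩
      · rintro ⟨_, ⟨x, rfl⟩, rfl⟩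
        exact ⟨x, x.2, rfl⟩
    rw [this]
    exact (Submodule.equivMapOfInjective _ U.injective_subtype (LinearMap.range g)).symm.finrank_eq
  omega

theorem rank_tr (h : Quat i j z) (hX : Module.finrank K X < 16) : Module.finrank K (LinearMap.range (Tr i j z)) ≤ 1 := by
  have habc := h.abc
  set a : Module.End K X := 1 + i with ha
  set b : Module.End K X := 1 + j with hb
  set c : Module.End K X := 1 + z with hc
  have h1 := rank_half c ⊤ (fun x _ => habc.cc x) (fun x _ => Submodule.mem_top)
  have h2 := rank_half b ((⊤ : Submodule K X).map c) (by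
    rintro _ ⟨x, -, rfl⟩
    rw [habc.bb, habc.cc]) (by
    rintro _ ⟨x, -, rfl⟩
    exact ⟨b x, trivial, habc.bc x⟩)
  have h3 := rank_half a (((⊤ : Submodule K X).map c).map b) (by
    rintro _ ⟨_, ⟨x, -, rfl⟩, rfl⟩
    rw [habc.aa, habc.bc, habc.cc, map_zero]) (by
    rintro _ ⟨_, ⟨x, -, rfl⟩, rfl⟩
    refine ⟨c (a x), ⟨a x, trivial, rfl⟩, ?_⟩
    have h4 := habc.ba (c x)
    rw [habc.cc, map_zero, map_zero, map_zero, add_zero, add_zero, add_zero, add_zero] at h4
    rw [habc.ac, h4])
  have h4 : LinearMap.range (Tr i j z) = (((⊤ : Submodule K X).map c).map b).map a := by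
    rw [Tr, ← ha, ← hb, ← hc]
    ext y
    constructor
    · rintro ⟨x, rfl⟩
      exact ⟨_, ⟨_, ⟨x, trivial, rfl⟩, rfl⟩, rfl⟩
    · rintro ⟨_, ⟨_, ⟨x, -, rfl⟩, rfl⟩, rfl⟩
      exact ⟨x, rfl⟩
  rw [h4]
  rw [finrank_top] at h1
  omega

/-- **`form_zero`** -/
theorem form_zero (h : Quat i j z) (hX : Module.finrank K X < 16) (B : X → X → K) (hs : ∀ x y, B x y = B y x)
    (hadd : ∀ x y y', B x (y + y') = B x y + B x y') (hsm : ∀ (l : K) x y, B x (l • y) = l * B x y)
    (hi : ∀ x y, B (i x) (i y) = B x y) (hj : ∀ x y, B (j x) (j y) = B x y)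
    (nd : ∀ x, (∀ y, B x y = 0) → x = 0) (alt : ∀ x, B x x = 0) (hz : ∀ x, B x (z x) = 0)
    (free : ∀ x, x + z x = 0 → ∃ y, x = y + z y) (x : X) : x = 0 := by
  have habc := h.abc
  have h2 : (2 : K) = 0 := CharTwo.two_eq_zero
  have hzz : ∀ x y, B (z x) (z y) = B x y := fun x y => by rw [← h.ii, ← h.ii, hi, hi]
  have hii : ∀ x y, B x (i (z y)) = B (i x) y := fun x y => by
    rw [← hi (i x) y, h.ii, ← hzz (z x), h.zz, h.zi]
  have hjj : ∀ x y, B x (j (z y)) = B (j x) y := fun x y => by
    rw [← hj (j x) y, h.jj, ← hzz (z x), h.zz, h.zj]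
  have hii' : ∀ x y, B x (i y) = B (i (z x)) y := fun x y => by rw [hs x, ← hii, hs]
  have hjj' : ∀ x y, B x (j y) = B (j (z x)) y := fun x y => by rw [hs x, ← hjj, hs]
  have hzl : ∀ x y, B x (z y) = B (z x) y := fun x y => by rw [← hzz x, h.zz]
  have hkk : ∀ x y, B x (i (j y)) = B (i (j (z x))) y := fun x y => by
    rw [hii', hjj', h.zi, h.zz, h.ji, h.zi, h.zj]
  have hkk' : ∀ x y, B x (i (j (z y))) = B (i (j x)) y := fun x y => by
    rw [hkk, hzl, h.zi, h.zj, h.zz]
  have hadd' : ∀ x x' y, B (x + x') y = B x y + B x' y := fun x x' y => by rw [hs, hadd, hs y, hs y]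
  have hT : ∀ x y, B x (Tr i j z y) = B (Tr i j z x) y := fun x y => by
    rw [Tr_apply, Tr_apply]
    simp only [hadd, hadd']
    rw [hzl, hii, hii', hjj, hjj', hkk, hkk']
    ring
  have hT0 : ∀ x, B x (Tr i j z x) = 0 := fun x => by
    rw [Tr_apply]
    simp only [hadd]
    rw [alt, hz, hii, hs (i x), hjj, hs (j x), hkk', hs (i (j x))]
    linear_combination (B x (i x) + B x (j x) + B x (i (j x))) * h2
  have hr := rank_tr h hX
  have key : ∀ x, Tr i j z x = 0 := by
    intro x
    by_contra hx
    have h3 : ∀ y, ∃ l : K, l • Tr i j z x = Tr i j z y := by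
      intro y
      have h4 : Module.finrank K (LinearMap.range (Tr i j z)) = 1 := by
        refine le_antisymm hr (Module.finrank_pos_iff_exists_ne_zero.2 ⟨⟨_, ⟨x, rfl⟩⟩, fun hh => hx (congrArg Subtype.val hh)⟩)
      obtain ⟨l, hl⟩ := exists_smul_eq_of_finrank_eq_one h4
        (x := (⟨_, ⟨x, rfl⟩⟩ : LinearMap.range (Tr i j z))) (fun hh => hx (congrArg Subtype.val hh)) ⟨_, ⟨y, rfl⟩⟩
      exact ⟨l, congrArg Subtype.val hl⟩
    refine hx (nd _ fun y => ?_)
    obtain ⟨l, hl⟩ := h3 y
    rw [← hT, ← hl, hsm, hT0, mul_zero]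
  exact choui habc key free x

/-- **`toral_zero`** -/
theorem toral_zero (h : Quat i j z) (hX : Module.finrank K X < 16) (B : X → X → K) (hs : ∀ x y, B x y = B y x)
    (hadd : ∀ x y y', B x (y + y') = B x y + B x y') (hsm : ∀ (l : K) x y, B x (l • y) = l * B x y)
    (hi : ∀ x y, B (i x) (i y) = B x y) (hj : ∀ x y, B (j x) (j y) = B x y)
    (nd : ∀ x, (∀ y, B x y = 0) → x = 0) (alt : ∀ x, B x x = 0)
    {P A : Module.End K X} (hP : ∀ x, P (P x) = P x) (hPi : ∀ x, P (i x) = i (P x)) (hPj : ∀ x, P (j x) = j (P x))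
    (hPB : ∀ x y, B (P x) y = B x (P y)) (hAB : ∀ x y, B (A x) y = B x (A y))
    (hA : ∀ x, P x = A x + z (A (z x))) (x : X) : P x = 0 := by
  have h2 : (2 : K) = 0 := CharTwo.two_eq_zero
  have hPz : ∀ x, P (z x) = z (P x) := fun x => by rw [← h.ii, hPi, hPi, h.ii]
  have hadd' : ∀ x x' y, B (x + x') y = B x y + B x' y := fun x x' y => by rw [hs, hadd, hs y, hs y]
  have hzz : ∀ x y, B (z x) (z y) = B x y := fun x y => by rw [← h.ii, ← h.ii, hi, hi]
  have hzl : ∀ x y, B x (z y) = B (z x) y := fun x y => by rw [← hzz x, h.zz]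
  -- the subspace
  set U : Submodule K X := LinearMap.range P with hU
  have memU : ∀ u : U, P (u : X) = u := by
    rintro ⟨_, x, rfl⟩
    exact hP x
  let r : Module.End K X → Module.End K U := fun f => (P.rangeRestrict ∘ₗ f) ∘ₗ U.subtype
  have hr : ∀ (f : Module.End K X) (u : U), ((r f u : U) : X) = P (f u) := fun f u => rfl
  have hri : ∀ u : U, ((r i u : U) : X) = i u := fun u => by rw [hr, hPi, memU]
  have hrj : ∀ u : U, ((r j u : U) : X) = j u := fun u => by rw [hr, hPj, memU]
  have hrz : ∀ u : U, ((r z u : U) : X) = z u := fun u => by rw [hr, hPz, memU]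
  have hQ : Quat (r i) (r j) (r z) := by
    refine ⟨fun u => ?_, fun u => ?_, fun u => ?_, fun u => ?_⟩ <;> apply Subtype.ext
    · rw [hri, hri, hrz, h.ii]
    · rw [hrj, hrj, hrz, h.jj]
    · rw [hrz, hrz, h.zz]
    · rw [hri, hrj, hrz, hrj, hri, h.ij]
  -- on the subspace
  have hAU : ∀ u : U, (u : X) = P (A u) + P (z (A (z u))) := fun u => by
    rw [← map_add, ← hA, memU, memU]
  have key : ∀ u : U, u = 0 := by
    refine form_zero hQ (lt_of_le_of_lt (Submodule.finrank_le _) hX) (fun u v => B u v) (fun u v => hs _ _)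
      (fun u v v' => hadd _ _ _) (fun l u v => hsm _ _ _) ?_ ?_ ?_ (fun u => alt _) ?_ ?_
    · intro u v
      change B ((r i u : U) : X) ((r i v : U) : X) = _
      rw [hri, hri, hi]
    · intro u v
      change B ((r j u : U) : X) ((r j v : U) : X) = _
      rw [hrj, hrj, hj]
    · intro u hu
      apply Subtype.ext
      refine nd _ fun y => ?_
      have := hu ⟨P y, ⟨y, rfl⟩⟩
      change B (u : X) (P y) = 0 at this
      rw [← hPB, memU] at this
      exact this
    · intro u
      change B (u : X) ((r z u : U) : X) = 0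
      rw [hrz]
      have h3 : z (u : X) = P (z (A u)) + P (A (z u)) := by
        have h4 := congrArg z (hAU u)
        rw [map_add, ← hPz, ← hPz, h.zz] at h4
        exact h4
      rw [h3, hadd, ← hPB, ← hPB, memU, hzl, ← hAB, hs (u : X)]
      linear_combination (B (A (z (u : X))) u) * h2
    · intro u hu
      have h3 : (u : X) + z u = 0 := by
        have := congrArg Subtype.val hu
        rw [← hrz]
        exact this
      have h4 : z (u : X) = u := by
        have := addself K (u : X)
        calc z (u : X) = (u : X) + u + z u := by rw [this, zero_add]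
          _ = u + (u + z u) := by rw [add_assoc]
          _ = u := by rw [h3, add_zero]
      refine ⟨r A u, ?_⟩
      apply Subtype.ext
      change (u : X) = ((r A u : U) : X) + ((r z (r A u) : U) : X)
      rw [hrz, hr]
      conv_lhs => rw [hAU u, h4]
      rw [hPz]
  have := congrArg Subtype.val (key ⟨P x, ⟨x, rfl⟩⟩)
  exact this

end Form

end Cfsg.Agent.H544.L34
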