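import Mathlib

/-!
# S5917: rational subspaces (helper544)

`I` finite, `K` a field over `F₂`; `upF v` : the inclusion `(I → F₂) → (I → K)`.
* `pr π x` : a functional `π : K → F₂` applied to the coordinates;
* `UK U` : the `K`-span of a subspace `U` of `I → F₂`; `finrank_UK`, `mem_UK_of`, `up_mem_UK`.
-/

set_option autoImplicit false
set_option linter.unusedSectionVars false

namespace Cfsg.Agent.H544.L34.Rat

variable {I K : Type*} [Fintype I] [Field K] [Algebra (ZMod 2) K]

/-- the inclusion -/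
def upF (v : I → ZMod 2) : I → K := fun i => algebraMap (ZMod 2) K (v i)

/-- the coordinates of a functional -/
def pr (π : K →ₗ[ZMod 2] ZMod 2) (x : I → K) : I → ZMod 2 := fun i => π (x i)

theorem pr_smul_up (π : K →ₗ[ZMod 2] ZMod 2) (c : K) (v : I → ZMod 2) : pr π (c • upF v) = π c • v := by
  funext i
  show π (c * algebraMap (ZMod 2) K (v i)) = π c * v i
  rw [mul_comm, ← Algebra.smul_def, map_smul, smul_eq_mul, mul_comm]

theorem pr_add (π : K →ₗ[ZMod 2] ZMod 2) (x y : I → K) : pr π (x + y) = pr π x + pr π y := by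
  funext i
  exact map_add π _ _

theorem pr_sum {κ : Type*} (S : Finset κ) (π : K →ₗ[ZMod 2] ZMod 2) (x : κ → I → K) :
    pr π (∑ k ∈ S, x k) = ∑ k ∈ S, pr π (x k) := by
  funext i
  rw [Finset.sum_apply]
  show π ((∑ k ∈ S, x k) i) = _
  rw [Finset.sum_apply, map_sum]
  rfl

/-- functionals separate points -/
theorem sep {c : K} (h : ∀ π : K →ₗ[ZMod 2] ZMod 2, π c = 0) : c = 0 :=
  (Module.forall_dual_apply_eq_zero_iff (ZMod 2) c).1 h

theorem exists_one : ∃ π : K →ₗ[ZMod 2] ZMod 2, π 1 = 1 := by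
  by_contra hn
  push Not at hn
  refine one_ne_zero (α := K) (sep fun π => ?_)
  have h1 := hn π
  have : ∀ a : ZMod 2, a ≠ 1 → a = 0 := by decide
  exact this _ h1

/-- the span -/
def UK (U : Submodule (ZMod 2) (I → ZMod 2)) : Submodule K (I → K) := Submodule.span K (upF '' (U : Set (I → ZMod 2)))

theorem pr_up (π : K →ₗ[ZMod 2] ZMod 2) (v : I → ZMod 2) : pr π (upF v : I → K) = π 1 • v := by
  have h := pr_smul_up π (1 : K) v
  rwa [one_smul] at h

theorem pr_mem {U : Submodule (ZMod 2) (I → ZMod 2)} {x : I → K} (hx : x ∈ UK (K := K) U) (π : K →ₗ[ZMod 2] ZMod 2) :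
    pr π x ∈ U := by
  have key : ∀ π : K →ₗ[ZMod 2] ZMod 2, pr π x ∈ U := by
    unfold UK at hx
    induction hx using Submodule.span_induction with
    | mem y hy =>
      obtain ⟨u, hu, rfl⟩ := hy
      intro π
      rw [pr_up]
      exact U.smul_mem _ hu
    | zero =>
      intro π
      have : pr π (0 : I → K) = 0 := by
        funext i
        exact map_zero π
      rw [this]
      exact U.zero_mem
    | add y y' _ _ h1 h2 =>
      intro π
      rw [pr_add]
      exact U.add_mem (h1 π) (h2 π)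
    | smul c y _ h1 =>
      intro π
      have : pr π (c • y) = pr (π ∘ₗ LinearMap.mulLeft (ZMod 2) c) y := by
        funext i
        rfl
      rw [this]
      exact h1 _
  exact key π

theorem mem_UK_of {U : Submodule (ZMod 2) (I → ZMod 2)} {x : I → K} (h : ∀ π : K →ₗ[ZMod 2] ZMod 2, pr π x ∈ U) :
    x ∈ UK (K := K) U := by
  classical
  let W : Submodule (ZMod 2) K := Submodule.span (ZMod 2) (Set.range x)
  have : Module.Finite (ZMod 2) W := Module.Finite.span_of_finite _ (Set.finite_range x)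
  let b := Module.finBasis (ZMod 2) W
  have hx : ∀ i, x i ∈ W := fun i => Submodule.subset_span ⟨i, rfl⟩
  choose g hg using fun a => LinearMap.exists_extend (b.coord a)
  have h1 : x = ∑ a, (b a : K) • upF (pr (g a) x) := by
    funext i
    have h2 := congrArg (fun w : W => (w : K)) (b.sum_repr ⟨x i, hx i⟩)
    simp only at h2
    rw [Finset.sum_apply]
    conv_lhs => rw [← h2]
    rw [AddSubmonoidClass.coe_finset_sum]
    refine Finset.sum_congr rfl fun a _ => ?_
    have h3 : (g a) (x i) = b.repr ⟨x i, hx i⟩ a := by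
      have := LinearMap.congr_fun (hg a) ⟨x i, hx i⟩
      exact this
    show ((b.repr ⟨x i, hx i⟩ a • b a : W) : K) = (b a : K) * algebraMap (ZMod 2) K (g a (x i))
    rw [h3, mul_comm, ← Algebra.smul_def]
    rfl
  rw [h1]
  exact Submodule.sum_mem _ fun a _ => Submodule.smul_mem _ _ (Submodule.subset_span ⟨_, h _, rfl⟩)

theorem up_mem_UK {U : Submodule (ZMod 2) (I → ZMod 2)} {v : I → ZMod 2} : (upF v : I → K) ∈ UK (K := K) U ↔ v ∈ U := by
  constructor
  · intro h
    obtain ⟨π, hπ⟩ := exists_one (K := K)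
    have h1 := pr_mem h π
    rwa [pr_up, hπ, one_smul] at h1
  · intro h
    exact Submodule.subset_span ⟨v, h, rfl⟩

theorem linInd {n : Type*} [Fintype n] {b : n → I → ZMod 2} (hb : LinearIndependent (ZMod 2) b) :
    LinearIndependent K (fun a => (upF (b a) : I → K)) := by
  rw [Fintype.linearIndependent_iff] at hb ⊢
  intro c hc a
  refine sep fun π => ?_
  have h1 : ∑ a, (π (c a)) • b a = 0 := by
    have h2 := congrArg (pr π) hc
    rw [pr_sum] at h2
    simp only [pr_smul_up] at h2
    rw [h2]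
    funext i
    exact map_zero π
  exact hb _ h1 a

theorem finrank_UK (U : Submodule (ZMod 2) (I → ZMod 2)) : Module.finrank K (UK (K := K) U) = Module.finrank (ZMod 2) U := by
  classical
  let b := Module.finBasis (ZMod 2) U
  have h1 : LinearIndependent (ZMod 2) (fun a => (b a : I → ZMod 2)) :=
    b.linearIndependent.map' U.subtype (Submodule.ker_subtype U)
  have h2 := linInd (K := K) h1
  have h3 : UK (K := K) U = Submodule.span K (Set.range fun a => (upF (b a : I → ZMod 2) : I → K)) := by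
    apply le_antisymm
    · unfold UK
      rw [Submodule.span_le]
      rintro _ ⟨u, hu, rfl⟩
      have h4 := congrArg (fun w : U => (w : I → ZMod 2)) (b.sum_repr ⟨u, hu⟩)
      simp only at h4
      have h5 : (upF u : I → K) = ∑ a, (algebraMap (ZMod 2) K (b.repr ⟨u, hu⟩ a)) • upF (b a : I → ZMod 2) := by
        funext i
        have h6 := congrFun h4 i
        rw [AddSubmonoidClass.coe_finset_sum, Finset.sum_apply] at h6
        rw [Finset.sum_apply]
        show algebraMap (ZMod 2) K (u i) = _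
        rw [← h6, map_sum]
        refine Finset.sum_congr rfl fun a _ => ?_
        show algebraMap (ZMod 2) K (b.repr ⟨u, hu⟩ a * (b a : I → ZMod 2) i) = _
        rw [map_mul]
        rfl
      rw [h5]
      exact Submodule.sum_mem _ fun a _ => Submodule.smul_mem _ _ (Submodule.subset_span ⟨a, rfl⟩)
    · rw [Submodule.span_le]
      rintro _ ⟨a, rfl⟩
      exact Submodule.subset_span ⟨_, (b a).2, rfl⟩
  rw [h3, finrank_span_eq_card h2, Fintype.card_fin]

/-- a rational operator -/
def RatOp (T : (I → K) →ₗ[K] (I → K)) (T2 : (I → ZMod 2) →ₗ[ZMod 2] (I → ZMod 2)) : Prop :=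
  ∀ (π : K →ₗ[ZMod 2] ZMod 2) x, pr π (T x) = T2 (pr π x)

theorem RatOp.up {T : (I → K) →ₗ[K] (I → K)} {T2 : (I → ZMod 2) →ₗ[ZMod 2] (I → ZMod 2)} (h : RatOp T T2)
    (v : I → ZMod 2) : T (upF v) = upF (T2 v) := by
  funext i
  rw [← sub_eq_zero]
  refine sep fun π => ?_
  rw [map_sub]
  have h1 := congrFun (h π (upF v)) i
  rw [pr_up, map_smul] at h1
  have h2 := congrFun (pr_up (K := K) π (T2 v)) i
  show (pr π (T (upF v))) i - (pr π (upF (T2 v) : I → K)) i = 0
  rw [h1, h2, sub_self]

/-- matrices are rational operators -/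
theorem ratOp_matrix [DecidableEq I] (A : Matrix I I (ZMod 2)) :
    RatOp (K := K) (Matrix.mulVecLin (A.map (algebraMap (ZMod 2) K))) (Matrix.mulVecLin A) := by
  intro π x
  funext i
  show π (∑ j, algebraMap (ZMod 2) K (A i j) * x j) = ∑ j, A i j * π (x j)
  rw [map_sum]
  refine Finset.sum_congr rfl fun j _ => ?_
  rw [← Algebra.smul_def, map_smul, smul_eq_mul]

/-- kernels of rational operators -/
theorem mem_UK_iInf {κ : Type*} (T : κ → (I → K) →ₗ[K] (I → K)) (T2 : κ → (I → ZMod 2) →ₗ[ZMod 2] (I → ZMod 2))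
    (h : ∀ k, RatOp (T k) (T2 k)) (x : I → K) :
    x ∈ UK (K := K) (⨅ k, LinearMap.ker (T2 k)) ↔ ∀ k, T k x = 0 := by
  constructor
  · intro hx k
    funext i
    refine sep fun π => ?_
    have h1 := congrFun (h k π x) i
    have h2 := pr_mem hx π
    rw [Submodule.mem_iInf] at h2
    have h3 : T2 k (pr π x) = 0 := h2 k
    rw [h3] at h1
    exact h1
  · intro hx
    refine mem_UK_of fun π => ?_
    rw [Submodule.mem_iInf]
    intro k
    show T2 k (pr π x) = 0
    rw [← h k π x, hx k]
    funext i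
    exact map_zero π

/-- images of rational operators -/
theorem map_UK {T : (I → K) →ₗ[K] (I → K)} {T2 : (I → ZMod 2) →ₗ[ZMod 2] (I → ZMod 2)} (h : RatOp T T2)
    (U : Submodule (ZMod 2) (I → ZMod 2)) : (UK (K := K) U).map T = UK (K := K) (U.map T2) := by
  unfold UK
  rw [Submodule.map_span]
  congr 1
  ext x
  constructor
  · rintro ⟨_, ⟨u, hu, rfl⟩, rfl⟩
    exact ⟨T2 u, ⟨u, hu, rfl⟩, (h.up u).symm⟩
  · rintro ⟨_, ⟨u, hu, rfl⟩, rfl⟩
    exact ⟨_, ⟨u, hu, rfl⟩, h.up u⟩

end Cfsg.Agent.H544.L34.Rat
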